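import Mathlib

/-! The absolute trace of a finite field; an element with a prescribed trace condition. -/

set_option autoImplicit false

namespace H10.BG
open Finset Polynomial

variable {F : Type*} [Field F]

/-- the absolute trace -/
def tr (p n : ℕ) (x : F) : F := ∑ i ∈ range n, x ^ p ^ i

section
variable {p n : ℕ} [hp : Fact p.Prime] [CharP F p]

theorem tr_add (x y : F) : tr p n (x + y) = tr p n x + tr p n y := by
  simp only [tr, add_pow_char_pow, sum_add_distrib]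

omit [CharP F p] in
theorem tr_zero : tr p n (0 : F) = 0 := by
  simp [tr, hp.out.ne_zero]

theorem tr_neg (x : F) : tr p n (-x) = - tr p n x := by
  rw [eq_neg_iff_add_eq_zero, ← tr_add, neg_add_cancel, tr_zero]

variable [Fintype F]

omit hp [CharP F p] in
theorem tr_pow (hF : Fintype.card F = p ^ n) (x : F) : tr p n (x ^ p) = tr p n x := by
  have h1 := sum_range_succ (fun i => x ^ p ^ i) n
  have h2 := sum_range_succ' (fun i => x ^ p ^ i) n
  rw [← hF, FiniteField.pow_card] at h1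
  rw [h1, pow_zero, pow_one, add_left_inj] at h2
  simp only [tr, h2, ← pow_mul, pow_succ']

omit hp [CharP F p] in
theorem tr_pow_pow (hF : Fintype.card F = p ^ n) (x : F) (k : ℕ) : tr p n (x ^ p ^ k) = tr p n x := by
  induction k with
  | zero => simp
  | succ k ih => rw [pow_succ, pow_mul, tr_pow hF, ih]

theorem tr_frob (hF : Fintype.card F = p ^ n) (x : F) : tr p n x ^ p = tr p n x := by
  conv_rhs => rw [← tr_pow hF]
  simp only [tr, sum_pow_char, ← pow_mul, mul_comm]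

theorem exists_of_tr (hF : Fintype.card F = p ^ n) (hn : 0 < n) (L : F →+ F) (h1 : ∀ u, tr p n (L u) = 0)
    (h2 : Nat.card L.ker ≤ p) {c : F} (hc : tr p n c = 0) : ∃ u, L u = c := by
  classical
  obtain ⟨k, rfl⟩ := Nat.exists_eq_add_one_of_ne_zero hn.ne'
  let f : F[X] := ∑ i ∈ range (k + 1), X ^ p ^ i
  have f0 : f ≠ 0 := fun e => by
    have := congrArg (coeff · 1) e
    simp only [f, finsetSum_coeff, coeff_X_pow, coeff_zero] at this
    rw [sum_eq_single 0 (fun i _ hi => if_neg (Nat.one_lt_pow hi hp.out.one_lt).ne) (by simp)] at this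
    simp at this
  have f1 : f.natDegree ≤ p ^ k := natDegree_sum_le_of_forall_le _ _ fun i hi => by
    rw [natDegree_X_pow]
    exact Nat.pow_le_pow_right hp.out.pos (Nat.lt_succ_iff.1 (mem_range.1 hi))
  have f2 : ∀ x, tr p (k + 1) x = 0 → x ∈ f.roots.toFinset := fun x hx => by
    rw [Multiset.mem_toFinset, mem_roots f0, IsRoot, eval_finsetSum]
    simpa [tr] using hx
  have f3 : f.roots.toFinset.card ≤ p ^ k := (Multiset.toFinset_card_le _).trans ((card_roots' f).trans f1)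
  have h3 : Nat.card F = Nat.card L.ker * Nat.card L.range := by
    rw [← Nat.card_congr (QuotientAddGroup.quotientKerEquivRange L).toEquiv, mul_comm,
      AddSubgroup.card_eq_card_quotient_mul_card_addSubgroup]
  have h4 : p ^ k ≤ (univ.image L).card := by
    have : Nat.card L.range = (univ.image L).card := by
      rw [← Fintype.card_coe, ← Nat.card_eq_fintype_card]
      exact Nat.card_congr (Equiv.subtypeEquivRight (by simp))
    rw [Nat.card_eq_fintype_card, hF, this, pow_succ'] at h3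
    exact Nat.le_of_mul_le_mul_left (h3.le.trans (Nat.mul_le_mul_right _ h2)) hp.out.pos
  have h5 : univ.image L = f.roots.toFinset := eq_of_subset_of_card_le (fun x hx => by
    obtain ⟨u, -, rfl⟩ := mem_image.1 hx
    exact f2 _ (h1 u)) (f3.trans h4)
  simpa using (h5 ▸ f2 c hc : c ∈ univ.image L)

end

theorem res_aux {m i a : ℕ} (hm : 1 ≤ m) (hi : i < 2 * m + 1) (ha : a + 3 ≤ 4 * 2 ^ m ∨ a + 2 = 2 * 2 ^ m)
    (hs : a * 2 ^ i % (2 ^ (2 * m + 1) - 1) < 2 ^ m) :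
    a ≤ a * 2 ^ i % (2 ^ (2 * m + 1) - 1) ∨
      ∃ j, i + (j + 1) = 2 * m + 1 ∧ a = a * 2 ^ i % (2 ^ (2 * m + 1) - 1) * 2 ^ (j + 1) := by
  have hM : 2 ≤ 2 ^ m := by simpa using Nat.pow_le_pow_right two_pos hm
  have hQ : 2 ^ (2 * m + 1) = 2 * (2 ^ m * 2 ^ m) := by ring
  have ha' : a + 3 ≤ 4 * 2 ^ m := by omega
  rcases lt_or_ge i m with h | h
  · left
    have h1 : 2 * 2 ^ i ≤ 2 ^ m := by rw [← pow_succ']; exact Nat.pow_le_pow_right two_pos h
    have h2 : 0 < 2 ^ i := by positivity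
    rw [Nat.mod_eq_of_lt]
    · exact Nat.le_mul_of_pos_right _ h2
    · rw [hQ]
      generalize 2 ^ i = I at *
      generalize 2 ^ m = M at *
      have : (a + 3) * (2 * I) ≤ 4 * M * M := Nat.mul_le_mul ha' h1
      apply Nat.lt_sub_of_add_lt
      nlinarith
  · right
    obtain ⟨j, hj⟩ : ∃ j, i + (j + 1) = 2 * m + 1 := ⟨2 * m - i, by omega⟩
    refine ⟨j, hj, ?_⟩
    have h1 : 2 ^ (j + 1) ≤ 2 * 2 ^ m := by rw [← pow_succ']; exact Nat.pow_le_pow_right two_pos (by omega)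
    have h2 : 1 ≡ 2 ^ (2 * m + 1) [MOD 2 ^ (2 * m + 1) - 1] :=
      (Nat.modEq_iff_dvd' (by rw [hQ]; nlinarith)).2 dvd_rfl
    have h3 : a ≡ a * 2 ^ i % (2 ^ (2 * m + 1) - 1) * 2 ^ (j + 1) [MOD 2 ^ (2 * m + 1) - 1] := by
      have := (h2.mul_left a)
      rw [mul_one] at this
      refine this.trans ?_
      conv_lhs => rw [← hj, pow_add, ← mul_assoc]
      exact (Nat.mod_modEq _ _).symm.mul_right _
    refine h3.eq_of_lt_of_lt ?_ ?_
    · rw [hQ]
      generalize 2 ^ m = M at *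
      apply Nat.lt_sub_of_add_lt
      nlinarith
    · generalize a * 2 ^ i % (2 ^ (2 * m + 1) - 1) = s at *
      rw [hQ]
      generalize 2 ^ (j + 1) = I at *
      generalize 2 ^ m = M at *
      have : (s + 1) * I ≤ M * (2 * M) := Nat.mul_le_mul hs h1
      have : s * I ≤ s * (2 * M) := Nat.mul_le_mul_left _ h1
      apply Nat.lt_sub_of_add_lt
      nlinarith

theorem res_odd {m i a : ℕ} (hm : 1 ≤ m) (hi : i < 2 * m + 1) (ha : a + 3 ≤ 4 * 2 ^ m) (ho : a % 2 = 1)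
    (hs : a * 2 ^ i % (2 ^ (2 * m + 1) - 1) < 2 ^ m) : a ≤ a * 2 ^ i % (2 ^ (2 * m + 1) - 1) := by
  refine (res_aux hm hi (Or.inl ha) hs).resolve_right ?_
  rintro ⟨j, -, h⟩
  rw [pow_succ 2 j, ← mul_assoc] at h
  omega

theorem res3 {m i a : ℕ} (hm : 1 ≤ m) (hi : i < 2 * m + 1) (ha : a + 2 = 2 * 2 ^ m)
    (hs : a * 2 ^ i % (2 ^ (2 * m + 1) - 1) < 2 ^ m) :
    a * 2 ^ i % (2 ^ (2 * m + 1) - 1) + 1 = 2 ^ m ∧ i = 2 * m := by
  have hM : 2 ≤ 2 ^ m := by simpa using Nat.pow_le_pow_right two_pos hm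
  have hM2 : 2 ∣ 2 ^ m := dvd_pow_self 2 (by omega)
  rcases res_aux hm hi (Or.inr ha) hs with h | ⟨j, hj, h⟩
  · omega
  · rcases j with _ | j
    · omega
    · rw [pow_succ 2 (j + 1), pow_succ 2 j, ← mul_assoc, ← mul_assoc] at h
      omega

theorem res3' {m a : ℕ} (hm : 1 ≤ m) (ha : a + 2 = 2 * 2 ^ m) :
    a * 2 ^ (2 * m) % (2 ^ (2 * m + 1) - 1) + 1 = 2 ^ m := by
  have hM : 2 ≤ 2 ^ m := by simpa using Nat.pow_le_pow_right two_pos hm
  have hQ : 2 ^ (2 * m + 1) = 2 * (2 ^ m * 2 ^ m) := by ring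
  have hQ' : 2 ^ (2 * m) = 2 ^ m * 2 ^ m := by ring
  rw [hQ, hQ']
  generalize 2 ^ m = M at *
  obtain ⟨k, rfl⟩ : ∃ k, M = k + 1 := ⟨M - 1, by omega⟩
  obtain rfl : a = 2 * k := by omega
  have : 2 * ((k + 1) * (k + 1)) - 1 = 2 * k * k + 4 * k + 1 := by
    apply Nat.sub_eq_of_eq_add; ring
  rw [this, show 2 * k * ((k + 1) * (k + 1)) = k + (2 * k * k + 4 * k + 1) * k by ring, Nat.add_mul_mod_self_left,
    Nat.mod_eq_of_lt (by nlinarith)]

theorem tr_inv [Fintype F] {n : ℕ} (hF : Fintype.card F = 2 ^ n) {x : F} (hx : x ≠ 0) (a : ℕ) :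
    tr 2 n (x⁻¹ ^ a) = ∑ i ∈ range n, x ^ (2 ^ n - 1 - a * 2 ^ i % (2 ^ n - 1)) := by
  refine sum_congr rfl fun i _ => ?_
  have h1 : x ^ (2 ^ n - 1) = 1 := hF ▸ FiniteField.pow_card_sub_one_eq_one x hx
  have h2 : 0 < 2 ^ n - 1 := hF ▸ Nat.sub_pos_of_lt Fintype.one_lt_card
  rw [pow_sub₀ _ hx (Nat.mod_lt _ h2).le, h1, one_mul, ← pow_mul, inv_pow]
  conv_lhs => rw [← Nat.mod_add_div (a * 2 ^ i) (2 ^ n - 1), pow_add, pow_mul, h1, one_pow, mul_one]

theorem exists_delta [Fintype F] [CharP F 2] {m : ℕ} (hm : 1 ≤ m) (hF : Fintype.card F = 2 ^ (2 * m + 1)) :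
    ∃ d : F, d ≠ 0 ∧ 1 + d ≠ 0 ∧ tr 2 (2 * m + 1) (d⁻¹ ^ (2 * 2 ^ m - 3) + d⁻¹ ^ (4 * 2 ^ m - 3) +
      (1 + d)⁻¹ ^ (2 * 2 ^ m - 3) + (1 + d)⁻¹ ^ (2 * 2 ^ m - 2)) = 1 := by
  by_contra c
  push Not at c
  have hM : 2 ≤ 2 ^ m := by simpa using Nat.pow_le_pow_right two_pos hm
  have hQ : 2 ^ (2 * m + 1) = 2 * (2 ^ m * 2 ^ m) := by ring
  have hQ2 : 2 ^ m * 2 ≤ 2 ^ m * 2 ^ m := Nat.mul_le_mul_left _ hM
  obtain ⟨e, he⟩ : ∃ e : ℕ → ℕ → ℕ, ∀ a i, e a i = 2 ^ (2 * m + 1) - 1 - a * 2 ^ i % (2 ^ (2 * m + 1) - 1) :=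
    ⟨_, fun _ _ => rfl⟩
  have hlt : ∀ a i, a * 2 ^ i % (2 ^ (2 * m + 1) - 1) < 2 ^ (2 * m + 1) - 1 := fun a i => Nat.mod_lt _ (by omega)
  have e0 : ∀ a i, e a i ≠ 0 := fun a i => by have := hlt a i; rw [he]; omega
  have e1 : ∀ i ∈ range (2 * m + 1), e (2 * 2 ^ m - 3) i ≤ 2 ^ (2 * m + 1) - 2 ^ m := fun i hi => by
    have := res_odd (a := 2 * 2 ^ m - 3) hm (mem_range.1 hi) (by omega) (by omega)
    rw [he]; omega
  have e2 : ∀ i ∈ range (2 * m + 1), e (4 * 2 ^ m - 3) i < 2 ^ (2 * m + 1) - 2 ^ m := fun i hi => by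
    have := res_odd (a := 4 * 2 ^ m - 3) hm (mem_range.1 hi) (by omega) (by omega)
    rw [he]; omega
  have e3 : ∀ i ∈ range (2 * m + 1), i ≠ 2 * m → e (2 * 2 ^ m - 2) i < 2 ^ (2 * m + 1) - 2 ^ m := fun i hi h => by
    have := res3 (a := 2 * 2 ^ m - 2) hm (mem_range.1 hi) (by omega)
    rw [he]; omega
  have e4 : e (2 * 2 ^ m - 2) (2 * m) = 2 ^ (2 * m + 1) - 2 ^ m := by
    have := res3' (a := 2 * 2 ^ m - 2) hm (by omega)
    rw [he]; omega
  have e5 : ∀ i ∈ range (2 * m + 1), e (2 * 2 ^ m - 2) i ≤ 2 ^ (2 * m + 1) - 2 ^ m := fun i hi => by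
    by_cases h : i = 2 * m
    · rw [h, e4]
    · exact (e3 i hi h).le
  have hE : 2 ^ (2 * m + 1) - 2 ^ m < Fintype.card F := by omega
  generalize 2 ^ (2 * m + 1) - 2 ^ m = E at *
  let f : F[X] := ∑ i ∈ range (2 * m + 1), (X ^ e (2 * 2 ^ m - 3) i + X ^ e (4 * 2 ^ m - 3) i +
    (1 + X) ^ e (2 * 2 ^ m - 3) i + (1 + X) ^ e (2 * 2 ^ m - 2) i)
  have d1 : ∀ k, k ≤ E → ((1 + X : F[X]) ^ k).natDegree ≤ E := fun k hk =>
    natDegree_pow_le.trans (by rw [add_comm, ← C_1, natDegree_X_add_C]; simpa using hk)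
  have f0 : f = 0 := by
    refine eq_zero_of_natDegree_lt_card_of_eval_eq_zero f Function.injective_id (fun x => ?_)
      (lt_of_le_of_lt (natDegree_sum_le_of_forall_le _ _ fun i hi => ?_) hE)
    · simp only [f, eval_finsetSum, eval_add, eval_pow, eval_X, eval_one, id]
      by_cases h0 : x = 0
      · simp [h0, e0, CharTwo.two_eq_zero, one_add_one_eq_two]
      by_cases h1 : 1 + x = 0
      · rw [h1, show x = 1 by grind]
        simp [e0, CharTwo.two_eq_zero, one_add_one_eq_two]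
      have h2 := c x h0 h1
      have h3 := tr_frob hF (x⁻¹ ^ (2 * 2 ^ m - 3) + x⁻¹ ^ (4 * 2 ^ m - 3) +
        (1 + x)⁻¹ ^ (2 * 2 ^ m - 3) + (1 + x)⁻¹ ^ (2 * 2 ^ m - 2))
      have h4 : tr 2 (2 * m + 1) (x⁻¹ ^ (2 * 2 ^ m - 3) + x⁻¹ ^ (4 * 2 ^ m - 3) +
        (1 + x)⁻¹ ^ (2 * 2 ^ m - 3) + (1 + x)⁻¹ ^ (2 * 2 ^ m - 2)) = 0 := by grind
      simpa only [tr_add, tr_inv hF h0, tr_inv hF h1, ← he, sum_add_distrib] using h4
    · refine natDegree_add_le_of_degree_le (natDegree_add_le_of_degree_le (natDegree_add_le_of_degree_le ?_ ?_)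
        (d1 _ (e1 i hi))) (d1 _ (e5 i hi))
      · simpa using e1 i hi
      · simpa using (e2 i hi).le
  have h := congrArg (coeff · E) f0
  simp only [f, finsetSum_coeff, coeff_add, coeff_X_pow, coeff_one_add_X_pow, coeff_zero] at h
  have k1 : ∀ i ∈ range (2 * m + 1), ((if E = e (2 * 2 ^ m - 3) i then (1 : F) else 0) +
      (if E = e (4 * 2 ^ m - 3) i then (1 : F) else 0) + ((e (2 * 2 ^ m - 3) i).choose E : ℕ)) = 0 := fun i hi => by
    rw [if_neg (e2 i hi).ne']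
    rcases (e1 i hi).eq_or_lt with h | h
    · simp [h, CharTwo.two_eq_zero, one_add_one_eq_two]
    · simp [h.ne', Nat.choose_eq_zero_of_lt h]
  rw [sum_eq_single (2 * m) (fun i hi h => by rw [k1 i hi, Nat.choose_eq_zero_of_lt (e3 i hi h)]; simp) (by simp),
    k1 _ (by simp), e4] at h
  simp at h

end H10.BG
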