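import Cfsg.Agent.H10.BG.B

/-! Points of the curve `ρ² + 1 = ρ (t³ - 4 t)`, `t ≠ 0`, over finite fields. -/

set_option autoImplicit false

namespace H10.BG
open Finset

variable {F : Type*} [Field F] [Fintype F]

theorem sum_zpow [DecidableEq F] (k : ℤ) :
    ∑ x : Fˣ, (x : F) ^ k = if ((Fintype.card F - 1 : ℕ) : ℤ) ∣ k then -1 else 0 := by
  obtain ⟨n, rfl | rfl⟩ := Int.eq_nat_or_neg k
  · simp only [zpow_natCast, FiniteField.sum_pow_units, Int.natCast_dvd_natCast]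
  · rw [← Equiv.sum_comp (Equiv.inv Fˣ)]
    simp only [Equiv.inv_apply, Units.val_inv_eq_inv_val, zpow_neg, inv_pow, inv_inv, zpow_natCast,
      FiniteField.sum_pow_units, dvd_neg, Int.natCast_dvd_natCast]

theorem three_aux {i j : ℕ} : (3 ^ i + 3 ^ j = 4 ↔ (i = 0 ∧ j = 1) ∨ (i = 1 ∧ j = 0)) ∧ 3 ^ i ≠ 3 ^ j + 4 := by
  rcases i with _ | _ | i <;> rcases j with _ | _ | j <;> simp [pow_succ] <;> omega

theorem exists_rho [CharP F 3] {n : ℕ} (hn : 3 ≤ n) (hF : Fintype.card F = 3 ^ n) :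
    ∃ x : F, x ≠ 0 ∧ tr 3 n (x + x⁻¹) = 0 := by
  classical
  haveI : Fact (Nat.Prime 3) := ⟨Nat.prime_three⟩
  by_contra c
  push Not at c
  obtain ⟨k, rfl⟩ : ∃ k, n = k + 1 := ⟨n - 1, by omega⟩
  have hT : 9 ≤ 3 ^ k := Nat.pow_le_pow_right (n := 3) three_pos (show 2 ≤ k by omega)
  have hz : ∀ z : ℤ, -(2 * (3 ^ k : ℕ) + 4) ≤ z → z ≤ 2 * (3 ^ k : ℕ) + 4 →
      ∑ x : Fˣ, (x : F) ^ z = if z = 0 then -1 else 0 := fun z h1 h2 => by
    rw [sum_zpow, hF, pow_succ]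
    refine if_congr ⟨fun h => Int.eq_zero_of_abs_lt_dvd h (abs_lt.2 ⟨by omega, by omega⟩), ?_⟩ rfl rfl
    rintro rfl; simp
  have h1 : ∀ x : Fˣ, (x : F) ^ (-4 : ℤ) = ∑ i ∈ range (k + 1), ∑ j ∈ range (k + 1),
      ((x : F) ^ (((3 ^ i : ℕ) : ℤ) + (3 ^ j : ℕ) - 4) + (x : F) ^ (((3 ^ i : ℕ) : ℤ) - (3 ^ j : ℕ) - 4) +
       (x : F) ^ (((3 ^ j : ℕ) : ℤ) - (3 ^ i : ℕ) - 4) + (x : F) ^ (-((3 ^ i : ℕ) : ℤ) - (3 ^ j : ℕ) - 4)) := fun x => by
    have e1 := tr_frob hF ((x : F) + (x : F)⁻¹)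
    have e2 := c x x.ne_zero
    have e3 : tr 3 (k + 1) ((x : F) + (x : F)⁻¹) * tr 3 (k + 1) ((x : F) + (x : F)⁻¹) = 1 := by grind
    rw [← one_mul ((x : F) ^ (-4 : ℤ)), ← e3, tr, sum_mul_sum, sum_mul]
    refine sum_congr rfl fun i _ => ?_
    rw [sum_mul]
    refine sum_congr rfl fun j _ => ?_
    simp only [add_pow_char_pow, sub_eq_add_neg, zpow_add₀ x.ne_zero, zpow_neg, zpow_natCast, inv_pow]
    ring
  have h2 := hz (-4) (by omega) (by omega)
  rw [sum_congr rfl fun x _ => h1 x, sum_comm, sum_congr rfl fun i _ => sum_comm] at h2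
  rw [sum_congr rfl fun i hi => sum_congr rfl fun j hj =>
    (show _ = if (i = 0 ∧ j = 1) ∨ (i = 1 ∧ j = 0) then (-1 : F) else 0 by
      have a1 : 3 ^ i ≤ 3 ^ k := Nat.pow_le_pow_right three_pos (Nat.lt_succ_iff.1 (mem_range.1 hi))
      have a2 : 3 ^ j ≤ 3 ^ k := Nat.pow_le_pow_right three_pos (Nat.lt_succ_iff.1 (mem_range.1 hj))
      have a3 := three_aux (i := i) (j := j)
      have a4 := (three_aux (i := j) (j := i)).2
      simp only [sum_add_distrib]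
      generalize 3 ^ i = a at *
      generalize 3 ^ j = b at *
      rw [hz _ (by omega) (by omega), hz _ (by omega) (by omega), hz _ (by omega) (by omega),
        hz _ (by omega) (by omega), if_neg (c := _ - _ - _ = _) (by omega), if_neg (c := _ - _ - _ = _) (by omega),
        if_neg (c := _ - _ - _ = _) (by omega), add_zero, add_zero, add_zero]
      exact if_congr (by rw [← a3.1]; omega) rfl rfl)] at h2
  obtain ⟨k, rfl⟩ : ∃ l, k = l + 1 := ⟨k - 1, by omega⟩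
  simp only [sum_range_succ'] at h2
  simp at h2
  grind

/-- the curve has a point -/
def Cv (F : Type*) [Field F] : Prop := ∃ t r : F, t ≠ 0 ∧ r ^ 2 + 1 = r * (t ^ 3 - 4 * t)

theorem cv_three [CharP F 3] {n : ℕ} (hn : 3 ≤ n) (hF : Fintype.card F = 3 ^ n) : Cv F := by
  classical
  haveI : Fact (Nat.Prime 3) := ⟨Nat.prime_three⟩
  obtain ⟨x, x0, hx⟩ := exists_rho hn hF
  obtain ⟨t, ht⟩ := exists_of_tr hF (by omega) ((frobenius F 3).toAddMonoidHom - AddMonoidHom.id F) (fun u => by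
    simp [frobenius_def, sub_eq_add_neg, tr_add, tr_neg, tr_pow hF]) (by
    refine le_trans (Nat.card_le_card_of_injective (β := ({0, 1, -1} : Finset F)) (fun u => ⟨u.1, ?_⟩)
      fun u v h => Subtype.ext (Subtype.mk.inj h)) (by
        rw [Nat.card_eq_fintype_card, Fintype.card_coe]; exact card_le_three)
    have : (u : F) ^ 3 - u = 0 := u.2
    simp only [mem_insert, mem_singleton]
    grind) hx
  change t ^ 3 - t = _ at ht
  by_cases h : t = 0
  · exact ⟨1, x, one_ne_zero, by grind⟩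
  · exact ⟨t, x, h, by grind⟩

theorem cv_two [CharP F 2] (hF : 2 < Fintype.card F) : Cv F := by
  classical
  by_cases h : 3 ∣ Fintype.card Fˣ
  · haveI : Fact (Nat.Prime 3) := ⟨Nat.prime_three⟩
    obtain ⟨w, hw⟩ := exists_prime_orderOf_dvd_card 3 h
    have h1 : (w : F) ^ 3 = 1 := by rw [← hw, ← Units.val_pow_eq_pow_val, pow_orderOf_eq_one, Units.val_one]
    have h2 : (w : F) ≠ 1 := fun e => by simp [Units.ext_iff.2 (e.trans Units.val_one.symm)] at hw
    exact ⟨1, w, one_ne_zero, by grind⟩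
  · haveI : Nontrivial Fˣ := by
      rw [← Fintype.one_lt_card_iff_nontrivial, Fintype.card_units]; omega
    obtain ⟨r, hr⟩ := exists_ne (1 : Fˣ)
    have r0 := r.ne_zero
    have r1 : (r : F) ≠ 1 := by simpa using hr
    obtain ⟨t, ht⟩ := (powCoprime (G := Fˣ) (n := 3) (by
      rw [Nat.card_eq_fintype_card]
      exact ((Nat.Prime.coprime_iff_not_dvd Nat.prime_three).2 h).symm)).surjective
      (Units.mk0 ((r : F) + (r : F)⁻¹) (by grind))
    have : (t : F) ^ 3 = r + (r : F)⁻¹ := by simpa using congrArg Units.val ht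
    exact ⟨t, r, t.ne_zero, by grind⟩

theorem cv_prime {p : ℕ} (hp : p.Prime) (h5 : 5 ≤ p) [CharP F p] : Cv F := by
  classical
  have h2 : (2 : F) ≠ 0 := fun e => by
    have := Nat.le_of_dvd two_pos ((CharP.cast_eq_zero_iff F p 2).1 e); omega
  have h3 : (3 : F) ≠ 0 := fun e => by
    have := Nat.le_of_dvd three_pos ((CharP.cast_eq_zero_iff F p 3).1 e); omega
  by_cases h0 : (5 : F) = 0
  · exact ⟨2, 2, h2, by grind⟩
  by_cases a : IsSquare (2 : F)
  · obtain ⟨t, ht⟩ := a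
    exact ⟨t, 1 - t, by grind, by grind⟩
  by_cases b : IsSquare (5 : F)
  · obtain ⟨t, ht⟩ := b
    exact ⟨t, (t + 1) / 2, by grind, by grind⟩
  obtain ⟨t, ht⟩ : IsSquare (2 * 5 : F) := by
    rw [← quadraticChar_one_iff_isSquare (mul_ne_zero h2 h0), map_mul, quadraticChar_neg_one_iff_not_isSquare.2 a,
      quadraticChar_neg_one_iff_not_isSquare.2 b]
    norm_num
  obtain ⟨u, hu⟩ : ∃ u : F, 3 * u = 1 := ⟨3⁻¹, mul_inv_cancel₀ h3⟩
  exact ⟨t * u, (31 - 13 * t) * u ^ 3, mul_ne_zero (left_ne_zero_of_mul (ht ▸ mul_ne_zero h2 h0))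
    (right_ne_zero_of_mul_eq_one hu), by grind⟩

end H10.BG
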