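import Cfsg.Agent.H10.BG.A
import Cfsg.Agent.H10.BG.B
import Cfsg.Agent.H23.SzModel

/-! A solution of `v₁ = v₂` in the Suzuki groups. -/

set_option autoImplicit false

namespace H10.BG
open H23 H23.Sz

variable {F : Type*} [Field F] [Tits F]

theorem Tm_U {a b x1 x2 x3 x4 x5 x6 : F} (h1 : a = x1) (h2 : b + a * θ a = x2) (h3 : nf a b = x3) (h4 : θ a = x4)
    (h5 : b = x5) (h6 : a = x6) : Tm a b = U x1 x2 x3 x4 x5 x6 := by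
  subst h2 h3 h4 h5 h6
  rw [← h1]; rfl

omit [Tits F] in
theorem J_Jm : J F = Jm := by
  ext i j; fin_cases i <;> fin_cases j <;> simp [Cfsg.suzukiForm, Jm]

theorem grp {G : Type*} [Group G] {P Q W : G} (hW : W⁻¹ = W)
    (h : Q * P⁻¹ * (W * P⁻¹ * W * (Q⁻¹ * P * Q⁻¹) * W) = W * (P⁻¹ * Q * P⁻¹) * W * (Q⁻¹ * P) * W * P) :
    (Q * W) * (P * W)⁻¹ * (P * W)⁻¹ * (Q * W)⁻¹ * (P * W) * (Q * W)⁻¹ =
      (P * W)⁻¹ * (Q * W) * (P * W)⁻¹ * (Q * W)⁻¹ * (P * W) * (P * W) := by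
  calc _ = Q * P⁻¹ * (W⁻¹ * P⁻¹ * W⁻¹ * (Q⁻¹ * P * Q⁻¹) * W) * W⁻¹ := by group
    _ = W⁻¹ * (P⁻¹ * Q * P⁻¹) * W⁻¹ * (Q⁻¹ * P) * W * P * W := by rw [hW, h]
    _ = _ := by group

theorem rel_sz {G : Type*} [Group G] [Model F G] {r a b : F} (hr : r ≠ 0) (ha : a ≠ 0)
    (h3 : R3 r (θ r) a (θ a) = 0) (hB : θ b = 1 + r * θ r + θ a + a ^ 2 * θ a + a * b) :
    ∃ x y : G, y * x⁻¹ * x⁻¹ * y⁻¹ * x * y⁻¹ = x⁻¹ * y * x⁻¹ * y⁻¹ * x * x ∧ x * y ≠ 1 := by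
  have hs := θ_ne_zero hr
  have h5 : R5 r (θ r) (θ a) = 0 := by
    have h4 := congrArg θ h3
    simp only [R3, R5, map_add, map_mul, map_pow, map_one, map_zero, θθ] at h3 h4 ⊢
    refine (mul_eq_zero.1 ?_).resolve_left (pow_ne_zero 2 hr)
    linear_combination (norm := skip) h4 + (1 + r ^ 2 * θ r) * h3
    clear * -
    grind
  have hb : Rb r (θ r) a (θ a) b = 0 := by
    have h4 := congrArg θ hB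
    rw [θθ] at h4
    simp only [Rb, map_add, map_mul, map_pow, map_one, θθ, hB] at h4 ⊢
    linear_combination (norm := skip) h4
    clear * -
    grind
  have hk := key hs hb h3 h5
  obtain ⟨s, hs'⟩ : ∃ s, θ r = s := ⟨_, rfl⟩
  obtain ⟨A, hA⟩ : ∃ A, θ a = A := ⟨_, rfl⟩
  have hs2 : θ s = r ^ 2 := by rw [← hs', θθ]
  have hA2 : θ A = a ^ 2 := by rw [← hA, θθ]
  rw [hs', hA] at hk hB
  rw [hs'] at hs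
  obtain ⟨P, hP⟩ : ∃ P : G, P = T a b := ⟨_, rfl⟩
  obtain ⟨Q, hQ⟩ : ∃ Q : G, Q = T (a * s) (r ^ 2 * s * b + (1 + r * s) * (1 + r ^ 2) * s * a) := ⟨_, rfl⟩
  have e1 : ρ F (Q * P⁻¹) = U (s*a + a) (r^(3:ℕ)*s^(2:ℕ)*a + r^(2:ℕ)*s*a*A + r*s^(2:ℕ)*a + r^(2:ℕ)*s*b + r^(2:ℕ)*s*a + s*a*A + s*a + b) (r^(3:ℕ)*s^(3:ℕ)*a^(2:ℕ) + r^(4:ℕ)*s^(3:ℕ)*A + r^(3:ℕ)*s^(2:ℕ)*a^(2:ℕ) + r*s^(3:ℕ)*a^(2:ℕ) + r^(2:ℕ)*s*a^(2:ℕ)*A + r^(2:ℕ)*s^(2:ℕ)*a^(2:ℕ) + r^(3:ℕ)*s^(3:ℕ) + r^(4:ℕ)*s*A + r*s^(2:ℕ)*a^(2:ℕ) + r^(2:ℕ)*s*a*b + r^(2:ℕ)*s*a^(2:ℕ) + s*a^(2:ℕ)*A + s^(2:ℕ)*a^(2:ℕ) + r^(2:ℕ)*s^(2:ℕ) + s*a*b + s*a^(2:ℕ) + r^(2:ℕ)*A + r*s + A + 1) (r^(2:ℕ)*A + A) (r^(3:ℕ)*s^(2:ℕ)*a + r*s^(2:ℕ)*a + r^(2:ℕ)*a*A + r^(2:ℕ)*s*b + r^(2:ℕ)*s*a + a*A + s*a + b) (s*a + a) := by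
    simp only [hP, hQ, T_inv, T_mul, ρ_T]
    apply Tm_U <;> (try simp only [nf, map_add, map_mul, map_pow, map_one, hs', hA, hs2, hA2, hB]) <;> clear * - <;>
      grind
  have e2 : ρ F (P⁻¹) = U (a) (b) (r*s + A + 1) (A) (a*A + b) (a) := by
    simp only [hP, hQ, T_inv, T_mul, ρ_T]
    apply Tm_U <;> (try simp only [nf, map_add, map_mul, map_pow, map_one, hs', hA, hs2, hA2, hB]) <;> clear * - <;>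
      grind
  have e3 : ρ F (Q⁻¹ * P * Q⁻¹) = U (a) (r^(2:ℕ)*s*a*A + r^(2:ℕ)*a*A + s*a*A + a*A + b) (r^(2:ℕ)*s^(2:ℕ)*a^(2:ℕ)*A + r^(2:ℕ)*s*a^(2:ℕ)*A + s^(2:ℕ)*a^(2:ℕ)*A + s*a^(2:ℕ)*A + r*s + A + 1) (A) (r^(2:ℕ)*s*a*A + r^(2:ℕ)*a*A + s*a*A + b) (a) := by
    simp only [hP, hQ, T_inv, T_mul, ρ_T]
    apply Tm_U <;> (try simp only [nf, map_add, map_mul, map_pow, map_one, hs', hA, hs2, hA2, hB]) <;> clear * - <;>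
      grind
  have e4 : ρ F (P⁻¹ * Q * P⁻¹) = U (s*a) (r^(3:ℕ)*s^(2:ℕ)*a + r^(2:ℕ)*s*a*A + r*s^(2:ℕ)*a + r^(2:ℕ)*a*A + r^(2:ℕ)*s*b + r^(2:ℕ)*s*a + s*a*A + a*A + s*a) (r^(3:ℕ)*s^(3:ℕ)*a^(2:ℕ) + r^(4:ℕ)*s^(3:ℕ)*A + r*s^(3:ℕ)*a^(2:ℕ) + r^(2:ℕ)*s*a^(2:ℕ)*A + r^(2:ℕ)*s^(2:ℕ)*a^(2:ℕ) + r^(3:ℕ)*s^(3:ℕ) + r^(4:ℕ)*s*A + r^(2:ℕ)*a^(2:ℕ)*A + s*a^(2:ℕ)*A + s^(2:ℕ)*a^(2:ℕ) + r^(2:ℕ)*s^(2:ℕ) + a^(2:ℕ)*A + r^(2:ℕ)*A) (r^(2:ℕ)*A) (r^(3:ℕ)*s^(2:ℕ)*a + r*s^(2:ℕ)*a + r^(2:ℕ)*a*A + r^(2:ℕ)*s*b + r^(2:ℕ)*s*a + s*a*A + a*A + s*a) (s*a) := by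
    simp only [hP, hQ, T_inv, T_mul, ρ_T]
    apply Tm_U <;> (try simp only [nf, map_add, map_mul, map_pow, map_one, hs', hA, hs2, hA2, hB]) <;> clear * - <;>
      grind
  have e5 : ρ F (Q⁻¹ * P) = U (s*a + a) (r^(3:ℕ)*s^(2:ℕ)*a + r*s^(2:ℕ)*a + r^(2:ℕ)*s*b + r^(2:ℕ)*s*a + s*a*A + a*A + s*a + b) (r^(3:ℕ)*s^(3:ℕ)*a^(2:ℕ) + r^(4:ℕ)*s^(3:ℕ)*A + r^(3:ℕ)*s^(2:ℕ)*a^(2:ℕ) + r*s^(3:ℕ)*a^(2:ℕ) + r^(2:ℕ)*s^(2:ℕ)*a^(2:ℕ) + r^(3:ℕ)*s^(3:ℕ) + r^(4:ℕ)*s*A + r*s^(2:ℕ)*a^(2:ℕ) + r^(2:ℕ)*s*a*b + r^(2:ℕ)*s*a^(2:ℕ) + s^(2:ℕ)*a^(2:ℕ) + r^(2:ℕ)*s^(2:ℕ) + s*a*b + s*a^(2:ℕ) + r^(2:ℕ)*A + r*s + A + 1) (r^(2:ℕ)*A + A) (r^(3:ℕ)*s^(2:ℕ)*a + r^(2:ℕ)*s*a*A + r*s^(2:ℕ)*a + r^(2:ℕ)*a*A + r^(2:ℕ)*s*b + r^(2:ℕ)*s*a + s*a + b) (s*a + a) := by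
    simp only [hP, hQ, T_inv, T_mul, ρ_T]
    apply Tm_U <;> (try simp only [nf, map_add, map_mul, map_pow, map_one, hs', hA, hs2, hA2, hB]) <;> clear * - <;>
      grind
  have e6 : ρ F (P) = U (a) (a*A + b) (r*s + A + 1) (A) (b) (a) := by
    simp only [hP, hQ, T_inv, T_mul, ρ_T]
    apply Tm_U <;> (try simp only [nf, map_add, map_mul, map_pow, map_one, hs', hA, hs2, hA2, hB]) <;> clear * - <;>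
      grind
  refine ⟨P * W F, Q * W F, grp W_inv (ρ_inj (F := F) ?_), fun c => ?_⟩
  · rw [← e1, ← e2, ← e3, ← e4, ← e5, ← e6, ← J_Jm, ← ρ_W (G := G)] at hk
    simpa only [map_mul] using hk
  · have := congrFun (congrFun (congrArg (ρ F) c) 3) 0
    simp only [hP, hQ, map_mul (ρ F), ρ_T, ρ_W, J_Jm, Tm, Jm, mul4, map_one] at this
    exact mul_ne_zero ha hs (nf_eq_zero (by simpa using this)).1

theorem exists_sz {G : Type*} [Group G] [Model F G] [Fintype F] {m : ℕ} (hm : 1 ≤ m)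
    (hF : Fintype.card F = 2 ^ (2 * m + 1)) (hθ : ∀ x : F, θ x = x ^ 2 ^ (m + 1)) :
    ∃ x y : G, y * x⁻¹ * x⁻¹ * y⁻¹ * x * y⁻¹ = x⁻¹ * y * x⁻¹ * y⁻¹ * x * x ∧ x * y ≠ 1 := by
  classical
  obtain ⟨d, d0, w0, ht⟩ := exists_delta hm hF
  have hM : 2 ≤ 2 ^ m := by simpa using Nat.pow_le_pow_right two_pos hm
  have t1 : ∀ z : F, tr 2 (2 * m + 1) (θ z) = tr 2 (2 * m + 1) z := fun z => by rw [hθ, tr_pow_pow hF]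
  have t2 : ∀ z : F, tr 2 (2 * m + 1) (z ^ 2) = tr 2 (2 * m + 1) z := tr_pow hF
  have t3 : ∀ (z : F) (i j : ℕ), z ≠ 0 → j ≤ i * (2 * 2 ^ m) → z⁻¹ ^ (i * (2 * 2 ^ m) - j) = z ^ j / θ z ^ i :=
    fun z i j hz h => by
      rw [inv_pow, pow_sub₀ _ hz h, hθ, ← pow_mul, pow_succ, mul_comm (2 ^ m) 2, mul_comm _ i]
      field_simp
  have t4 := t3 d 1 3 d0 (by omega)
  have t5 := t3 d 2 3 d0 (by omega)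
  have t6 := t3 _ 1 3 w0 (by omega)
  have t7 := t3 _ 1 2 w0 (by omega)
  rw [one_mul] at t4 t6 t7
  rw [← mul_assoc, show 2 * 2 = 4 from rfl] at t5
  rw [t4, t5, t6, t7] at ht
  clear t3 t4 t5 t6 t7
  obtain ⟨D, hD⟩ : ∃ D, θ d = D := ⟨_, rfl⟩
  have hD2 : θ D = d ^ 2 := by rw [← hD, θθ]
  obtain ⟨w, hw⟩ : ∃ w, w = 1 + d := ⟨_, rfl⟩
  obtain ⟨V, hV⟩ : ∃ V, V = 1 + D := ⟨_, rfl⟩
  obtain ⟨p, hp⟩ : ∃ p, p = d + D := ⟨_, rfl⟩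
  obtain ⟨P, hP⟩ : ∃ P, P = D + d ^ 2 := ⟨_, rfl⟩
  obtain ⟨h, hh⟩ : ∃ h, h = p ^ 3 + P ^ 2 := ⟨_, rfl⟩
  obtain ⟨k, hk⟩ : ∃ k, k = P ^ 3 + p ^ 4 := ⟨_, rfl⟩
  have a1 : θ w = V := by simp [hw, hV, hD]
  have a2 : θ V = w ^ 2 := by rw [← a1, θθ]
  have a3 : θ p = P := by simp [hp, hP, hD, hD2]
  have a4 : θ P = p ^ 2 := by rw [← a3, θθ]
  have a5 : θ h = k := by simp only [hh, hk, map_add, map_pow, a3, a4]; ring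
  have a6 : θ k = h ^ 2 := by rw [← a5, θθ]
  rw [← hw] at w0 ht
  have D0 : D ≠ 0 := hD ▸ θ_ne_zero d0
  have V0 : V ≠ 0 := a1 ▸ θ_ne_zero w0
  have p0 : p ≠ 0 := fun c => by
    have := θ_eq_self (x := d) (by grind)
    grind
  have P0 : P ≠ 0 := a3 ▸ θ_ne_zero p0
  have h0 : h ≠ 0 := fun c => by
    have c' : k = 0 := by rw [← a5, c, map_zero]
    have e1 : P = p := mul_left_cancel₀ (pow_ne_zero 3 p0) (by clear * - hh hk c c'; grind)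
    clear * - hp hP e1 hw d0 w0
    grind
  have k0 : k ≠ 0 := a5 ▸ θ_ne_zero h0
  obtain ⟨a, ha⟩ : ∃ a, a = p ^ 3 * d ^ 4 * w ^ 2 / (P * D * k) := ⟨_, rfl⟩
  obtain ⟨r, hr⟩ : ∃ r, r = d ^ 2 * w ^ 2 * p ^ 2 / (P ^ 2 * D * V) := ⟨_, rfl⟩
  have hA : θ a = P ^ 3 * D ^ 4 * V ^ 2 / (p ^ 2 * d ^ 2 * h ^ 2) := by
    simp only [ha, map_div₀, map_mul, map_pow, hD, hD2, a1, a3, a4, a6]
  have hs : θ r = D ^ 2 * V ^ 2 * P ^ 2 / (p ^ 4 * d ^ 2 * w ^ 2) := by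
    simp only [hr, map_div₀, map_mul, map_pow, hD, hD2, a1, a2, a3, a4]; ring
  have a0 : a ≠ 0 := by rw [ha]; positivity
  have r0 : r ≠ 0 := by rw [hr]; positivity
  have b1 : 1 + r = k / (P ^ 2 * D * V) := by
    rw [hr]; field_simp; subst hk hp hP hw hV; clear * -; grind
  have b2 : 1 + θ r = h ^ 2 / (p ^ 4 * d ^ 2 * w ^ 2) := by
    rw [hs]; field_simp; subst hh hp hP hw hV; clear * -; grind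
  have b3 : r * θ r = D * V / p ^ 2 := by rw [hs, hr]; field_simp
  have b4 : 1 + r * θ r = P / p ^ 2 := by
    rw [b3]; field_simp; subst hp hP hV; clear * -; grind
  have b5 : r ^ 2 * θ r = d ^ 2 * w ^ 2 / P ^ 2 := by rw [hs, hr]; field_simp
  have b6 : a * θ r * (1 + r) = d ^ 2 * V / (p * P) := by rw [b1, hs, ha]; field_simp
  have b7 : θ a * r ^ 2 * (1 + θ r) = D ^ 2 * w ^ 2 / (P * p ^ 2) := by rw [b2, hA, hr]; field_simp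
  have h3 : R3 r (θ r) a (θ a) = 0 := by
    have : R3 r (θ r) a (θ a) = (a * θ r * (1 + r)) ^ 2 + θ a * r ^ 2 * (1 + θ r) * (1 + r * θ r) + 1 +
        r ^ 2 * θ r + (r * θ r) ^ 2 := by
      rw [R3]; clear * -; grind
    rw [this, b4, b3, b5, b6, b7]
    field_simp
    subst hp hP hw hV; clear * -; grind
  obtain ⟨f, hf⟩ : ∃ f, f = k * (d * h + P * D ^ 2 * V) / (p ^ 3 * d ^ 4 * w ^ 2 * D * V) := ⟨_, rfl⟩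
  have c1 : 1 + r * θ r + θ a = f ^ 2 * (a ^ 2 * θ a) := by
    rw [b4, hA, hf, ha]; field_simp; clear * -; grind
  have c2 : f = (w / p + (w / p) ^ 2) + (d⁻¹ + d⁻¹ ^ 2) + (w⁻¹ + θ w⁻¹) + (D / w + θ (D / w)) + (D / d + θ (D / d)) +
      (d / D + θ (d / D) ^ 2) + θ (d ^ 3 / D ^ 1 + d ^ 3 / D ^ 2 + w ^ 3 / V ^ 1 + w ^ 2 / V ^ 1) := by
    simp only [hf, map_div₀, map_add, map_inv₀, map_pow, hD, hD2, a1, a2]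
    field_simp
    subst hh hk hp hP hw hV; clear * -; grind
  have c3 : tr 2 (2 * m + 1) (1 + f ^ 2) = 0 := by
    rw [hD, a1] at ht
    rw [tr_add, t2, c2, tr_add, t1, ht]
    simp only [tr_add, t1, t2, add_self, zero_add]
    simp [tr, CharTwo.two_eq_zero, add_self]
  obtain ⟨u, hu⟩ := exists_of_tr hF (by omega) (AddMonoidHom.id F + (θ : F →+* F).toAddMonoidHom) (fun u => by
    simp [tr_add, t1, add_self]) (by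
    refine le_trans (Nat.card_le_card_of_injective (β := ({0, 1} : Finset F)) (fun u => ⟨u.1, ?_⟩)
      fun u v h => Subtype.ext (Subtype.mk.inj h)) (by
        rw [Nat.card_eq_fintype_card, Fintype.card_coe]; exact Finset.card_le_two)
    have : (u : F) + θ (u : F) = 0 := u.2
    simpa using θ_eq_self (Sz.add_eq_zero'.1 this).symm) c3
  change u + θ u = _ at hu
  refine rel_sz (b := a * θ a * u) r0 a0 h3 ?_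
  simp only [map_mul, θθ, c1]
  clear * - hu
  grind

end H10.BG
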